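import Cfsg.Agent.H50.RG.LStmts

/-!
# S5715 in unbounded rank: statements of the pieces on top of layer L (helper50) of S5714

For most `x` there is a subgroup `Z ≤ ⟨x⟩` of order `m ≥ M e`, irreducible on a `TS`-subspace `A` of dimension `e ∈ I` and
trivial on a complement; up to conjugation `Z` is determined by `m`.  The number of pairs `(x, g)` such that
`⟨x, g x g⁻¹⟩` misses a dense normal set is bounded by `∑ 1 / m` over the possible `m`.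
-/

set_option autoImplicit false

namespace Cfsg.Agent.H94.RG.U

open Module Cfsg.Agent.H847.Bs Cfsg.Agent.LieClassical.OrthCore Cfsg.Agent.H50.RG
open Cfsg.Agent.H440.Bs (perp mem_perp)

/-- the divisors of `q ^ e - 1` all prime divisors `r` of which satisfy `ord_r(q) = e` -/
noncomputable def pd (q e : ℕ) : Finset ℕ :=
  open scoped Classical in
  (q ^ e - 1).divisors.filter fun m => ∀ r : ℕ, r.Prime → r ∣ m → orderOf ((q : ℕ) : ZMod r) = e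

/-- U1, numerics: like `L20`, with `M` depending on `e` and `pd q e` very small compared with `M e` -/
def U1 : Prop := ∀ (K η : ℝ) (C par : ℕ), 0 < η → ∃ N₀ : ℕ, ∀ n q : ℕ, N₀ ≤ n → 2 ≤ q →
  ∃ (I : Finset ℕ) (M : ℕ → ℕ),
    (∀ e ∈ I, 2 ≤ M e ∧ 3 ≤ e ∧ e % 2 = par % 2 ∧ 4 * e + 8 ≤ n ∧ ¬ e ∣ n ∧ ¬ e ∣ (n - 1) / 2 ∧ ¬ e ∣ (n + 1) / 2 ∧
      16 * e * M e ^ 2 ≤ q ^ e.totient ∧ ∑ j ∈ Finset.range n, 1 / (((j + 1) * e : ℕ) : ℝ) ≤ η ∧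
      n * ((pd q e).card : ℝ) * ((n : ℝ) ^ 2 * Real.log q) ^ C ≤ M e) ∧
    K ≤ ∑ e ∈ I, 1 / (2 * e : ℝ)

/-- U2: irreducible elements of the same order are conjugate up to a power -/
def U2 : Prop := ∀ (F X Y : Type) [Field F] [Finite F] [AddCommGroup X] [Module F X] [Module.Finite F X]
  [AddCommGroup Y] [Module F Y] [Module.Finite F Y] (z : X ≃ₗ[F] X) (w : Y ≃ₗ[F] Y),
  finrank F X = finrank F Y → Irr z ⊤ → Irr w ⊤ → orderOf z = orderOf w →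
  ∃ (f : X ≃ₗ[F] Y) (k : ℕ), ∀ x, f (z x) = (w ^ k) (f x)

/-- `Z` is a cyclic group of order `m ∈ pd q e`, irreducible on `A` and trivial on `C` -/
structure ZS {F V : Type} [Field F] [AddCommGroup V] [Module F V] (e : ℕ) (Z : Subgroup (V ≃ₗ[F] V))
    (A C : Submodule F V) : Prop where
  cyc : ∃ z, Z = Subgroup.zpowers z
  ne : Z ≠ ⊥
  pd : Nat.card Z ∈ pd (Nat.card F) e
  dim : finrank F A = e
  inv : ∀ z ∈ Z, Inv z A
  irr : ∀ z ∈ Z, z ≠ 1 → ∀ W ≤ A, Inv z W → W = ⊥ ∨ W = A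
  fix : ∀ z ∈ Z, z ≠ 1 → ∀ a ∈ A, z a = a → a = 0
  triv : ∀ z ∈ Z, ∀ c ∈ C, z c = c

/-- U3: stronger form of `L13` (linear case) -/
def U3 : Prop := ∀ (F V : Type) [Field F] [Finite F] [AddCommGroup V] [Module F V] [Module.Finite F V]
  (e M : ℕ), 2 ≤ e → 2 ≤ M → ¬ e ∣ finrank F V → ∀ (y : V ≃ₗ[F] V) (A : Submodule F V), Gd (Prp F V) e M y A →
  ∃ (Z : Subgroup (V ≃ₗ[F] V)) (C : Submodule F V), Z ≤ Subgroup.zpowers y ∧ M ≤ Nat.card Z ∧ IsCompl A C ∧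
    ZS e Z A C ∧ Free Z (HomS A) ∧ Free Z (HomS C)

/-- U4: the same for forms, from `L14` -/
def U4 : Prop := ∀ (F V : Type) [Field F] [Finite F] [AddCommGroup V] [Module F V] [Module.Finite F V]
  (Φ : Frm F V) (e M : ℕ), Cls Φ e → 2 ≤ M → ∀ y ∈ Φ.Iso, ∀ A : Submodule F V, Gd Φ.TI e M y A →
  ∃ (Z : Subgroup (V ≃ₗ[F] V)) (A' C : Submodule F V), Z ≤ Subgroup.zpowers y ∧ M ≤ Nat.card Z ∧ Opp Φ A A' C ∧
    ZS e Z A C ∧ (∀ z ∈ Z, Inv z A') ∧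
    ∀ z ∈ Z, z ≠ 1 → (∀ W ≤ A', Inv z W → W = ⊥ ∨ W = A') ∧ (∀ a ∈ A', z a = a → a = 0) ∧
      ∃ r : ℕ, r.Prime ∧ r ∣ orderOf z ∧ orderOf ((Nat.card F : ℕ) : ZMod r) = e

end Cfsg.Agent.H94.RG.U
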