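import Cfsg.Agent.H94.RG.CMix

/-!
# S5715 in unbounded rank: `CMix` for the four families of groups of large rank
-/

set_option autoImplicit false
set_option linter.unusedSectionVars false

namespace Cfsg.Agent.H94.RG.U

open Module Cfsg.Agent.H847.Bs Cfsg.Agent.H50.RG Cfsg.Agent.LieClassical.OrthCore
open Cfsg.Agent.H440.Bs (perp mem_perp mem_perp')

/-- linear groups -/
def CSL : Prop := ∀ (ε : ℝ) (C : ℕ), 0 < ε → ∃ N₀ : ℕ, ∀ (F V : Type) [Field F] [Finite F] [AddCommGroup V]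
  [Module F V] [Module.Finite F V], N₀ ≤ finrank F V →
  CMix (slV F V) (1 / ((finrank F V : ℝ) ^ 2 * Real.log (Nat.card F)) ^ C) ε

/-- symplectic groups -/
def CSp : Prop := ∀ (ε : ℝ) (C : ℕ), 0 < ε → ∃ N₀ : ℕ, ∀ (F V : Type) [Field F] [Finite F] [AddCommGroup V]
  [Module F V] [Module.Finite F V] (Φ : Frm F V), IsSp Φ → N₀ ≤ finrank F V →
  CMix Φ.Iso (1 / ((finrank F V : ℝ) ^ 2 * Real.log (Nat.card F)) ^ C) ε

/-- unitary groups -/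
def CSU : Prop := ∀ (ε : ℝ) (C : ℕ), 0 < ε → ∃ N₀ : ℕ, ∀ (F V : Type) [Field F] [Finite F] [AddCommGroup V]
  [Module F V] [Module.Finite F V] (r : ℕ) (Φ : Frm F V), IsHerm r Φ → N₀ ≤ finrank F V →
  CMix ↥(Φ.Iso ⊓ slV F V) (1 / ((finrank F V : ℝ) ^ 2 * Real.log (Nat.card F)) ^ C) ε

/-- orthogonal groups -/
def COm : Prop := ∀ (ε : ℝ) (C : ℕ), 0 < ε → ∃ N₀ : ℕ, ∀ (F V : Type) [Field F] [Finite F] [AddCommGroup V]
  [Module F V] [Module.Finite F V] (Q : QuadraticForm F V), (frmQ Q).Nd → N₀ ≤ finrank F V →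
  CMix (E Q) (1 / ((finrank F V : ℝ) ^ 2 * Real.log (Nat.card F)) ^ C) ε

/-- the standard subgroups, linear case -/
theorem std_lin (h16 : L16) (hU2 : U2) (hU3 : U3) {F V : Type} [Field F] [Finite F] [AddCommGroup V] [Module F V]
    [Module.Finite F V] {k₀ e : ℕ} (hFT : FT (slV F V) (Prp F V) k₀) (he : 2 ≤ e) (hek : e ≤ k₀)
    (hdiv : ¬ e ∣ finrank F V) : ∃ St, Std (slV F V) (Prp F V) e St := by
  have : Finite (V ≃ₗ[F] V) := finite_glV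
  refine ⟨fun Z => Z ≤ slV F V ∧ ∃ A C, Prp F V A ∧ IsCompl A C ∧ ZS e Z A C ∧ Free Z (HomS A) ∧ Free Z (HomS C),
    ⟨fun Z h => h.1, ?_, ?_, ?_, ?_⟩⟩
  · rintro Z ⟨_, A, C, _, _, h, _⟩
    exact h.pd
  · rintro Z ⟨hle, A, C, hA, hAC, h, h1, h2⟩ n ρ h0
    refine frob_of_free hle h1 h2 (h16 F V A C hAC (h.ne_bot (by omega)) ?_) n ρ h0
    rintro rfl
    have h3 : A = ⊤ := by simpa using hAC.codisjoint.eq_top
    rw [h3] at hA
    unfold Prp at hA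
    rw [finrank_top] at hA
    exact lt_irrefl _ hA
  · rintro Z Z' ⟨_, A, C, hA, hAC, h, _⟩ ⟨_, A', C', hA', hAC', h', h1, h2⟩ hcard
    have hC' : C' ≠ ⊥ := by
      rintro rfl
      have h3 : A' = ⊤ := by simpa using hAC'.codisjoint.eq_top
      rw [h3] at hA'
      unfold Prp at hA'
      rw [finrank_top] at hA'
      exact lt_irrefl _ hA'
    exact conj_lin hU2 hFT (by omega) hek h h' hA hA' hAC hAC' hcard
      (le_sup_left.trans (h16 F V A' C' hAC' (h'.ne_bot (by omega)) hC').le) h1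
  · intro M hM y hy A hA
    obtain ⟨Z, C, h1, h2, h3, h4, h5, h6⟩ := hU3 F V e M he hM hdiv y A hA
    exact ⟨Z, ⟨h1.trans (by rwa [Subgroup.zpowers_le]), A, C, hA.ts, h3, h4, h5, h6⟩, h1, h2⟩

theorem csl (h02 : L02) (h03 : L03) (h04 : L04) (h12 : L12) (h16 : L16) (hU1 : U1) (hU2 : U2) (hU3 : U3) : CSL := by
  intro ε C hε
  obtain ⟨N₀, h⟩ := common h02 h03 hU1 ε C 1 hε
  refine ⟨N₀ + 1, fun F V _ _ _ _ _ hn => ?_⟩
  have hFT := h04 F V (by omega)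
  refine h F V (slV F V) (Prp F V) (finrank F V - 1) (by omega) (by omega) (by omega)
    (fun A B hAB hB => (Submodule.finrank_mono hAB).trans_lt hB) hFT ?_ ?_ ?_ ?_ ?_ ?_
  · obtain ⟨A, hA⟩ := exists_sub (F := F) (V := V) (k := finrank F V - 1) (by omega)
    exact ⟨A, by unfold Prp; omega, hA⟩
  · intro g _ A hA
    unfold Prp at hA ⊢
    rwa [LinearEquiv.finrank_map_eq]
  · intro y _ A A' _ _ _ _ _ hlt
    exact (Submodule.finrank_add_le_finrank_add_finrank A A').trans_lt hlt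
  · intro e M he _ hlt hM y _ s hs
    exact (h12 F V e M (by omega) hlt y s hs).trans (by omega)
  · intro e _ _ B hB _
    unfold Prp at hB
    omega
  · intro e he _ _ hdiv hek
    exact std_lin h16 hU2 hU3 hFT (by omega) hek hdiv

/-- the standard subgroups, groups of isometries -/
theorem std_form (h15 : L15) (hU2 : U2) (hU4 : U4) {F V : Type} [Field F] [Finite F] [AddCommGroup V] [Module F V]
    [Module.Finite F V] {Φ : Frm F V} {G : Subgroup (V ≃ₗ[F] V)} (hG : G ≤ Φ.Iso) {k₀ e : ℕ} (hFT : FT G Φ.TI k₀)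
    (he : 2 ≤ e) (hek : e ≤ k₀) (hΦ : Cls Φ e)
    (hgen : ∀ A A' C : Submodule F V, finrank F A = e → Opp Φ A A' C → (G ⊓ RadG Φ A) ⊔ (G ⊓ RadG Φ A') = G) :
    ∃ St, Std G Φ.TI e St := by
  have : Finite (V ≃ₗ[F] V) := finite_glV
  refine ⟨fun Z => Z ≤ G ∧ ∃ A A' C, Opp Φ A A' C ∧ ZS e Z A C ∧ Free Z (G ⊓ RadG Φ A) ∧ Free Z (G ⊓ RadG Φ A'),
    ⟨fun Z h => h.1, ?_, ?_, ?_, ?_⟩⟩
  · rintro Z ⟨_, A, A', C, _, h, _⟩
    exact h.pd
  · rintro Z ⟨hle, A, A', C, hO, h, h1, h2⟩ n ρ h0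
    exact frob_of_free hle h1 h2 (hgen A A' C h.dim hO) n ρ h0
  · rintro Z Z₂ ⟨hle, A, A', C, hO, h, _⟩ ⟨hle₂, A₂, A₂', C₂, hO₂, h₂, h1, h2⟩ hcard
    exact conj_form hU2 hG hFT (by omega) hek h h₂ hO hO₂ hle hle₂ hcard h1
  · intro M hM y hy A hA
    obtain ⟨Z, A', C, hZ, hZM, hO, hZS, hZ1, hZ2⟩ := hU4 F V Φ e M hΦ hM y (hG hy) A hA
    have hZG : Z ≤ G := hZ.trans (by rwa [Subgroup.zpowers_le])
    have hf1 : Free Z (G ⊓ RadG Φ A) := by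
      refine ⟨fun z hz g hg => ?_, fun z hz hz1 g hg hc => ?_⟩
      · exact Subgroup.mem_inf.2 ⟨G.mul_mem (G.mul_mem (hZG hz) hg.1) (G.inv_mem (hZG hz)),
          rad_conj (hG (hZG hz)) (hZS.inv z hz) (hZS.inv z⁻¹ (inv_mem hz)) hg.2⟩
      · obtain ⟨h3, h4, h5⟩ := hZ2 z hz hz1
        exact h15 F V Φ e A A' C hΦ hA.dim hO z (hG (hZG hz)) (hZS.triv z hz) (hZS.inv z hz) (hZ1 z hz)
          (hZS.irr z hz hz1) (hZS.fix z hz hz1) h3 h4 h5 g hg.2 hc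
    have hf2 : Free Z (G ⊓ RadG Φ A') := by
      refine ⟨fun z hz g hg => ?_, fun z hz hz1 g hg hc => ?_⟩
      · exact Subgroup.mem_inf.2 ⟨G.mul_mem (G.mul_mem (hZG hz) hg.1) (G.inv_mem (hZG hz)),
          rad_conj (hG (hZG hz)) (hZ1 z hz) (hZ1 z⁻¹ (inv_mem hz)) hg.2⟩
      · obtain ⟨h3, h4, h5⟩ := hZ2 z hz hz1
        exact h15 F V Φ e A' A C hΦ (by rw [← hO.dim]; exact hA.dim) hO.symm z (hG (hZG hz)) (hZS.triv z hz)
          (hZ1 z hz) (hZS.inv z hz) h3 h4 (hZS.irr z hz hz1) (hZS.fix z hz hz1) h5 g hg.2 hc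
    exact ⟨Z, ⟨hZG, A, A', C, hO, hZS, hf1, hf2⟩, hZ, hZM⟩

/-- the common part for the groups of isometries -/
theorem common_form (h02 : L02) (h03 : L03) (h08 : L08) (h09 : L09) (h11 : L11) (h15 : L15) (hU1 : U1)
    (hU2 : U2) (hU4 : U4) (ε : ℝ) (C par : ℕ) (hε : 0 < ε) : ∃ N₀ : ℕ,
    ∀ (F V : Type) [Field F] [Finite F] [AddCommGroup V] [Module F V] [Module.Finite F V] (Φ : Frm F V)
    (G : Subgroup (V ≃ₗ[F] V)), N₀ ≤ finrank F V → G ≤ Φ.Iso →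
    (IsSp Φ ∨ (∃ r, IsHerm r Φ) ∨ (∃ Q : QuadraticForm F V, (frmQ Q).Nd ∧ Φ = frmQ Q)) →
    (∀ e, 3 ≤ e → e % 2 = par % 2 → Cls Φ e) →
    (∀ k₀, 2 * k₀ + 3 ≤ finrank F V → FT G Φ.TI k₀) →
    (∀ A A' C : Submodule F V, 3 ≤ finrank F A → 4 * finrank F A + 8 ≤ finrank F V → Opp Φ A A' C → C ≠ ⊥ →
      (G ⊓ RadG Φ A) ⊔ (G ⊓ RadG Φ A') = G) →
    CMix G (1 / ((finrank F V : ℝ) ^ 2 * Real.log (Nat.card F)) ^ C) ε := by
  obtain ⟨N₀, h⟩ := common h02 h03 hU1 ε C par hε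
  refine ⟨N₀ + 10, fun F V _ _ _ _ _ Φ G hn hG hty hcls hFT hgen => ?_⟩
  have hNd : Φ.Nd := (hcls (3 + (par + 1) % 2) (by omega) (by omega)).1
  obtain ⟨hex, hbd⟩ := h08 F V Φ hty
  refine h F V G Φ.TI ((finrank F V - 3) / 2) (by omega) (by omega) le_rfl (fun A B hAB hB => ti_mono hAB hB)
    (hFT _ (by omega)) (hex _ (by omega)) (fun g hg A hA => ti_map (hG hg) hA) ?_ ?_ ?_ ?_
  · intro y hy A A' hA hA' hi hi' hne _
    exact h09 F V Φ hNd y (hG hy) A A' hA hA' hi hi' hne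
  · intro e M he hpar _ hM y hy s hs
    exact h11 F V Φ e M (hcls e he hpar) hM y (hG hy) s hs
  · intro e h1 h2 B hB hdiv
    have h3 := hbd B hB
    by_contra hlt
    have h4 : finrank F B = (finrank F V - 1) / 2 ∨ finrank F B = (finrank F V + 1) / 2 := by omega
    rcases h4 with h4 | h4
    · exact h1 (h4 ▸ hdiv)
    · exact h2 (h4 ▸ hdiv)
  · intro e he hpar hle _ hek
    refine std_form h15 hU2 hU4 hG (hFT _ (by omega)) (by omega) hek (hcls e he hpar)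
      (fun A A' C hd hO => hgen A A' C (by omega) (by omega) hO ?_)
    rintro rfl
    have h1 : A ⊔ A' = ⊤ := by simpa using hO.compl.codisjoint.eq_top
    have h2 := Submodule.finrank_add_le_finrank_add_finrank A A'
    rw [h1, finrank_top, ← hO.dim] at h2
    omega

theorem csp (h02 : L02) (h03 : L03) (h05 : L05) (h08 : L08) (h09 : L09) (h11 : L11) (h15 : L15)
    (h17 : L17) (hU1 : U1) (hU2 : U2) (hU4 : U4) : CSp := by
  intro ε C hε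
  obtain ⟨N₀, h⟩ := common_form h02 h03 h08 h09 h11 h15 hU1 hU2 hU4 ε C 1 hε
  refine ⟨N₀, fun F V _ _ _ _ _ Φ hΦ hn => h F V Φ Φ.Iso hn le_rfl (Or.inl hΦ) ?_ (h05 F V Φ hΦ) ?_⟩
  · intro e he hpar
    exact ⟨hΦ.nd, by omega, Or.inl ⟨hΦ, Nat.odd_iff.2 hpar⟩⟩
  · intro A A' C hA _ hO hC
    refine h17 F V Φ A A' C hΦ hO ?_ hC
    rintro rfl
    rw [finrank_bot] at hA
    omega

theorem csu (h02 : L02) (h03 : L03) (h06 : L06) (h08 : L08) (h09 : L09) (h11 : L11) (h15 : L15)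
    (h18 : L18) (hU1 : U1) (hU2 : U2) (hU4 : U4) : CSU := by
  intro ε C hε
  obtain ⟨N₀, h⟩ := common_form h02 h03 h08 h09 h11 h15 hU1 hU2 hU4 ε C 0 hε
  refine ⟨N₀, fun F V _ _ _ _ _ r Φ hΦ hn => h F V Φ (Φ.Iso ⊓ slV F V) hn inf_le_left (Or.inr (Or.inl ⟨r, hΦ⟩)) ?_
    (h06 F V r Φ hΦ) ?_⟩
  · intro e he hpar
    exact ⟨hΦ.nd, by omega, Or.inr (Or.inl ⟨r, hΦ, Nat.even_iff.2 hpar⟩)⟩
  · intro A A' C hA _ hO hC
    exact h18 F V r Φ A A' C hΦ hO (by omega) hC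

theorem com (h02 : L02) (h03 : L03) (h07 : L07) (h08 : L08) (h09 : L09) (h11 : L11) (h15 : L15)
    (h19 : L19) (hU1 : U1) (hU2 : U2) (hU4 : U4) : COm := by
  intro ε C hε
  obtain ⟨N₀, h⟩ := common_form h02 h03 h08 h09 h11 h15 hU1 hU2 hU4 ε C 1 hε
  refine ⟨N₀, fun F V _ _ _ _ _ Q hQ hn => h F V (frmQ Q) (E Q) hn ?_ (Or.inr (Or.inr ⟨Q, hQ, rfl⟩)) ?_
    (h07 F V Q hQ) ?_⟩
  · intro g hg
    have hO := E_le_O hg
    refine ⟨fun x y => ?_, fun x => hO x⟩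
    show QuadraticMap.polar Q (g x) (g y) = QuadraticMap.polar Q x y
    unfold QuadraticMap.polar
    rw [← map_add, hO, hO, hO]
  · intro e he hpar
    exact ⟨hQ, by omega, Or.inr (Or.inr ⟨Q, rfl, Nat.odd_iff.2 hpar⟩)⟩
  · intro A A' C hA _ hO hC
    refine h19 F V Q A A' C hQ hO ?_ hC
    rintro rfl
    rw [finrank_bot] at hA
    omega

end Cfsg.Agent.H94.RG.U
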