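import Cfsg.Agent.H94.RG.StatM
import Cfsg.Agent.H343.RG.Res

/-!
# S5715 in unbounded rank: the subgroups `Z` of the same order are conjugate

* `conj_of_free` : if `z` normalises the finite group `Q` and acts freely on it, all elements `u z`, `u ∈ Q`, are conjugate to `z`;
* `conj_cls` : the class lemma, abstract form;
* `conj_lin`, `conj_form` : linear groups, groups of isometries.
-/

set_option autoImplicit false
set_option linter.unusedSectionVars false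

namespace Cfsg.Agent.H94.RG.U

open Module Cfsg.Agent.H847.Bs Cfsg.Agent.H50.RG Cfsg.Agent.LieClassical.OrthCore
open Cfsg.Agent.H440.Bs (perp mem_perp mem_perp')
open Cfsg.Agent.H343.RG (rs rs_apply rs_pow irr_rs)

theorem conj_of_free {Γ : Type*} [Group Γ] {Q : Subgroup Γ} [Finite Q] {z u : Γ} (hn : ∀ v ∈ Q, z * v * z⁻¹ ∈ Q)
    (hf : ∀ v ∈ Q, z * v * z⁻¹ = v → v = 1) (hu : u ∈ Q) : ∃ v ∈ Q, v * z * v⁻¹ = u * z := by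
  let f : Q → Q := fun v => ⟨v * (z * (v : Γ)⁻¹ * z⁻¹), Q.mul_mem v.2 (hn _ (Q.inv_mem v.2))⟩
  have hinj : Function.Injective f := by
    intro v w h
    have h1 : (v : Γ) * (z * (v : Γ)⁻¹ * z⁻¹) = w * (z * (w : Γ)⁻¹ * z⁻¹) := congrArg Subtype.val h
    have h2 : z * ((w : Γ)⁻¹ * v) * z⁻¹ = (w : Γ)⁻¹ * v := by
      have h3 : (w : Γ)⁻¹ * v = z * (w : Γ)⁻¹ * z⁻¹ * (z * (v : Γ)⁻¹ * z⁻¹)⁻¹ := by
        rw [eq_mul_inv_iff_mul_eq, mul_assoc, h1]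
        group
      conv_rhs => rw [h3]
      group
    have h4 := hf _ (Q.mul_mem (Q.inv_mem w.2) v.2) h2
    exact (Subtype.ext (inv_mul_eq_one.1 h4)).symm
  obtain ⟨v, hv⟩ := (Finite.injective_iff_surjective.1 hinj) ⟨u, hu⟩
  refine ⟨v, v.2, ?_⟩
  have h1 : (v : Γ) * (z * (v : Γ)⁻¹ * z⁻¹) = u := congrArg Subtype.val hv
  rw [← h1]
  group

section

variable {F V : Type} [Field F] [Finite F] [AddCommGroup V] [Module F V] [Module.Finite F V]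
variable {G : Subgroup (V ≃ₗ[F] V)} {TS : Submodule F V → Prop} {k₀ e : ℕ}

theorem ZS.ne_bot {Z : Subgroup (V ≃ₗ[F] V)} {A C : Submodule F V} (h : ZS e Z A C) (he : 1 ≤ e) : A ≠ ⊥ := by
  rintro rfl
  have := h.dim
  rw [finrank_bot] at this
  omega

/-- an element trivial on `A` is trivial -/
theorem ZS.eq_one {Z : Subgroup (V ≃ₗ[F] V)} {A C : Submodule F V} (h : ZS e Z A C) (he : 1 ≤ e)
    {z : V ≃ₗ[F] V} (hz : z ∈ Z) (h1 : ∀ a ∈ A, z a = a) : z = 1 := by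
  by_contra hne
  exact h.ne_bot he ((Submodule.eq_bot_iff _).2 fun a ha => h.fix z hz hne a ha (h1 a ha))

theorem ZS.orderOf_rs {Z : Subgroup (V ≃ₗ[F] V)} {A C : Submodule F V} (h : ZS e Z A C) (he : 1 ≤ e)
    {z : V ≃ₗ[F] V} (hz : z ∈ Z) : orderOf (rs z A (h.inv z hz)) = orderOf z := by
  refine orderOf_eq_orderOf_iff.2 fun n => ⟨fun hn => ?_, fun hn => ?_⟩
  · refine h.eq_one he (Z.pow_mem hz n) fun a ha => ?_
    have h1 := rs_pow (h.inv z hz) n ⟨a, ha⟩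
    rw [hn] at h1
    exact h1.symm
  · ext a
    have h1 := rs_pow (h.inv z hz) n a
    rw [h1, hn]
    rfl

theorem ZS.irr_of_ne {Z : Subgroup (V ≃ₗ[F] V)} {A C : Submodule F V} (h : ZS e Z A C) (he : 1 ≤ e)
    {z : V ≃ₗ[F] V} (hz : z ∈ Z) (hz1 : z ≠ 1) : Irr z A := ⟨h.inv z hz, h.ne_bot he, h.irr z hz hz1⟩

/-- **the class lemma**, abstract form -/
theorem conj_cls (hU2 : U2) (hFT : FT G TS k₀) (he : 1 ≤ e) (hek : e ≤ k₀) {Z₁ Z₂ Q : Subgroup (V ≃ₗ[F] V)}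
    {A₁ C₁ A₂ C₂ : Submodule F V} (h1 : ZS e Z₁ A₁ C₁) (h2 : ZS e Z₂ A₂ C₂) (t1 : TS A₁) (t2 : TS A₂)
    (hcard : Nat.card Z₁ = Nat.card Z₂) (hQG : Q ≤ G) (hQ : Free Z₂ Q)
    (hag : ∀ g ∈ G, (∀ a ∈ A₁, g a ∈ A₂) → ∀ z ∈ Z₁, ∀ z' ∈ Z₂, (∀ a ∈ A₂, (g * z * g⁻¹) a = z' a) →
      (g * z * g⁻¹) * z'⁻¹ ∈ Q) :
    ∃ g ∈ G, ∀ z ∈ Z₁, g * z * g⁻¹ ∈ Z₂ := by
  have : Finite (V ≃ₗ[F] V) := finite_glV
  obtain ⟨z₁, rfl⟩ := h1.cyc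
  obtain ⟨z₂, rfl⟩ := h2.cyc
  have hm1 := Subgroup.mem_zpowers z₁
  have hm2 := Subgroup.mem_zpowers z₂
  have hne1 : z₁ ≠ 1 := fun h => h1.ne (by rw [h, Subgroup.zpowers_one_eq_bot])
  have hne2 : z₂ ≠ 1 := fun h => h2.ne (by rw [h, Subgroup.zpowers_one_eq_bot])
  have hi1 := h1.irr_of_ne he hm1 hne1
  have hi2 := h2.irr_of_ne he hm2 hne2
  rw [Nat.card_zpowers, Nat.card_zpowers] at hcard
  obtain ⟨f, k, hf⟩ := hU2 F A₁ A₂ (rs z₁ A₁ hi1.inv) (rs z₂ A₂ hi2.inv) (by rw [h1.dim, h2.dim]) (irr_rs hi1)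
    (irr_rs hi2) (by rw [h1.orderOf_rs he hm1, h2.orderOf_rs he hm2, hcard])
  -- the element `g`
  obtain ⟨g, hg, hgf⟩ := fr_trans hFT (X := A₁) (by rw [h1.dim]; exact hek)
    ⟨A₁.subtype, A₁.injective_subtype, by rw [Submodule.range_subtype]; exact t1⟩
    ⟨A₂.subtype ∘ₗ (f : A₁ →ₗ[F] A₂), A₂.injective_subtype.comp f.injective, by
      rw [LinearMap.range_comp, LinearEquiv.range, Submodule.map_top, Submodule.range_subtype]; exact t2⟩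
  have hgf' : ∀ x : A₁, g (x : V) = (f x : V) := hgf
  have hgA : ∀ a ∈ A₁, g a ∈ A₂ := fun a ha => by
    rw [hgf' ⟨a, ha⟩]
    exact (f ⟨a, ha⟩).2
  set z' := z₂ ^ k with hz'
  have hz'm : z' ∈ Subgroup.zpowers z₂ := Subgroup.pow_mem _ hm2 k
  have hagr : ∀ a ∈ A₂, (g * z₁ * g⁻¹) a = z' a := by
    intro a ha
    obtain ⟨x, hx⟩ := f.surjective ⟨a, ha⟩
    have hx' : g (x : V) = a := by rw [hgf' x, hx]
    have hx2 : g⁻¹ a = x := by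
      rw [← hx']
      exact g.symm_apply_apply _
    show g (z₁ (g⁻¹ a)) = z' a
    rw [hx2]
    have h3 : g (z₁ (x : V)) = (f (rs z₁ A₁ hi1.inv x) : V) := hgf' (rs z₁ A₁ hi1.inv x)
    rw [h3, hf x, rs_pow, hx]
  have hu := hag g hg hgA z₁ hm1 z' hz'm hagr
  have hz'1 : z' ≠ 1 := by
    intro h
    apply hne1
    refine h1.eq_one he hm1 fun a ha => ?_
    have h3 := hagr (g a) (hgA a ha)
    rw [h] at h3
    have h4 : g⁻¹ (g a) = a := g.symm_apply_apply _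
    have h5 : g (z₁ (g⁻¹ (g a))) = g a := h3
    rw [h4] at h5
    exact g.injective h5
  obtain ⟨v, hv, hvz⟩ := conj_of_free (hQ.1 z' hz'm) (hQ.2 z' hz'm hz'1) hu
  refine ⟨v⁻¹ * g, G.mul_mem (G.inv_mem (hQG hv)) hg, fun z hz => ?_⟩
  obtain ⟨n, rfl⟩ := Subgroup.mem_zpowers_iff.1 hz
  have h3 : (v⁻¹ * g) * z₁ * (v⁻¹ * g)⁻¹ = z' := by
    have h4 : g * z₁ * g⁻¹ = v * z' * v⁻¹ := by rw [hvz]; group
    calc (v⁻¹ * g) * z₁ * (v⁻¹ * g)⁻¹ = v⁻¹ * (g * z₁ * g⁻¹) * v := by group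
      _ = z' := by rw [h4]; group
  have h4 : (v⁻¹ * g) * z₁ ^ n * (v⁻¹ * g)⁻¹ = z' ^ n := by
    rw [← h3, conj_zpow]
  rw [h4]
  exact Subgroup.zpow_mem _ hz'm n

/-- linear groups -/
theorem conj_lin (hU2 : U2) (hFT : FT G TS k₀) (he : 1 ≤ e) (hek : e ≤ k₀) {Z₁ Z₂ : Subgroup (V ≃ₗ[F] V)}
    {A₁ C₁ A₂ C₂ : Submodule F V} (h1 : ZS e Z₁ A₁ C₁) (h2 : ZS e Z₂ A₂ C₂) (t1 : TS A₁) (t2 : TS A₂)
    (c1 : IsCompl A₁ C₁) (c2 : IsCompl A₂ C₂)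
    (hcard : Nat.card Z₁ = Nat.card Z₂) (hQG : HomS A₂ ≤ G) (hQ : Free Z₂ (HomS A₂)) :
    ∃ g ∈ G, ∀ z ∈ Z₁, g * z * g⁻¹ ∈ Z₂ := by
  refine conj_cls hU2 hFT he hek h1 h2 t1 t2 hcard hQG hQ fun g hg hgA z hz z' hz' hag => ?_
  have htr : ∀ {Z : Subgroup (V ≃ₗ[F] V)} {A C : Submodule F V}, ZS e Z A C → IsCompl A C → ∀ z ∈ Z, ∀ x, z x - x ∈ A := by
    intro Z A C h c z hz x
    obtain ⟨a, ha, b, hb, rfl⟩ := Submodule.mem_sup.1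
      ((codisjoint_iff.1 c.codisjoint) ▸ (Submodule.mem_top : x ∈ (⊤ : Submodule F V)))
    rw [map_add, h.triv z hz b hb]
    have : z a + b - (a + b) = z a - a := by abel
    rw [this]
    exact A.sub_mem (h.inv z hz a ha) ha
  refine ⟨fun x => ?_, fun a ha => ?_⟩
  · have e1 : ((g * z * g⁻¹) * z'⁻¹) x - x = (g (z (g⁻¹ (z'⁻¹ x)) - g⁻¹ (z'⁻¹ x))) + (z'⁻¹ x - x) := by
      rw [map_sub]
      have : g (g⁻¹ (z'⁻¹ x)) = z'⁻¹ x := g.apply_symm_apply _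
      rw [this]
      show g (z (g⁻¹ (z'⁻¹ x))) - x = _
      abel
    rw [e1]
    exact A₂.add_mem (hgA _ (htr h1 c1 z hz _)) (htr h2 c2 _ (Z₂.inv_mem hz') x)
  · show (g * z * g⁻¹) (z'⁻¹ a) = a
    rw [hag _ (h2.inv _ (Z₂.inv_mem hz') a ha)]
    exact z'.apply_symm_apply a

/-- groups of isometries -/
theorem conj_form (hU2 : U2) {Φ : Frm F V} (hG : G ≤ Φ.Iso) (hFT : FT G Φ.TI k₀) (he : 1 ≤ e) (hek : e ≤ k₀)
    {Z₁ Z₂ : Subgroup (V ≃ₗ[F] V)} {A₁ A₁' C₁ A₂ A₂' C₂ : Submodule F V} (h1 : ZS e Z₁ A₁ C₁) (h2 : ZS e Z₂ A₂ C₂)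
    (o1 : Opp Φ A₁ A₁' C₁) (o2 : Opp Φ A₂ A₂' C₂) (hZ1 : Z₁ ≤ G) (hZ2 : Z₂ ≤ G)
    (hcard : Nat.card Z₁ = Nat.card Z₂) (hQ : Free Z₂ (G ⊓ RadG Φ A₂)) :
    ∃ g ∈ G, ∀ z ∈ Z₁, g * z * g⁻¹ ∈ Z₂ := by
  refine conj_cls hU2 hFT he hek h1 h2 o1.ti o2.ti hcard inf_le_left hQ fun g hg hgA z hz z' hz' hag => ?_
  have hmem : (g * z * g⁻¹) * z'⁻¹ ∈ G :=
    G.mul_mem (G.mul_mem (G.mul_mem hg (hZ1 hz)) (G.inv_mem hg)) (G.inv_mem (hZ2 hz'))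
  have hfix : ∀ a ∈ A₂, ((g * z * g⁻¹) * z'⁻¹) a = a := by
    intro a ha
    show (g * z * g⁻¹) (z'⁻¹ a) = a
    rw [hag _ (h2.inv _ (Z₂.inv_mem hz') a ha)]
    exact z'.apply_symm_apply a
  have htr : ∀ {Z : Subgroup (V ≃ₗ[F] V)} {A A' C : Submodule F V}, ZS e Z A C → Opp Φ A A' C → ∀ z ∈ Z,
      ∀ x ∈ perp Φ A, z x - x ∈ A := by
    intro Z A A' C h o z hz x hx
    rw [o.perp_eq] at hx
    obtain ⟨a, ha, b, hb, rfl⟩ := Submodule.mem_sup.1 hx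
    rw [map_add, h.triv z hz b hb]
    have : z a + b - (a + b) = z a - a := by abel
    rw [this]
    exact A.sub_mem (h.inv z hz a ha) ha
  refine Subgroup.mem_inf.2 ⟨hmem, hG hmem, fun x => ?_, fun x hx => ?_, hfix⟩
  · rw [mem_perp]
    intro a ha
    have h3 := (hG hmem).1 x a
    rw [hfix a ha] at h3
    have h4 := Φ.add_left (((g * z * g⁻¹) * z'⁻¹) x - x) x a
    rw [sub_add_cancel, h3] at h4
    linear_combination -h4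
  · have hz'x : z'⁻¹ x ∈ perp Φ A₂ := by
      have h3 := htr h2 o2 _ (Z₂.inv_mem hz') x hx
      have h4 : z'⁻¹ x = (z'⁻¹ x - x) + x := by abel
      rw [h4]
      refine (perp Φ A₂).add_mem ?_ hx
      rw [mem_perp]
      intro a ha
      exact o2.ti.1 _ h3 a ha
    have hgx : g⁻¹ (z'⁻¹ x) ∈ perp Φ A₁ := by
      rw [mem_perp]
      intro a ha
      rw [← (hG hg).1]
      have : g (g⁻¹ (z'⁻¹ x)) = z'⁻¹ x := g.apply_symm_apply _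
      rw [this]
      exact hz'x _ (hgA a ha)
    have e1 : ((g * z * g⁻¹) * z'⁻¹) x - x = (g (z (g⁻¹ (z'⁻¹ x)) - g⁻¹ (z'⁻¹ x))) + (z'⁻¹ x - x) := by
      rw [map_sub]
      have : g (g⁻¹ (z'⁻¹ x)) = z'⁻¹ x := g.apply_symm_apply _
      rw [this]
      show g (z (g⁻¹ (z'⁻¹ x))) - x = _
      abel
    rw [e1]
    exact A₂.add_mem (hgA _ (htr h1 o1 z hz _ hgx)) (htr h2 o2 _ (Z₂.inv_mem hz') x hx)

end

end Cfsg.Agent.H94.RG.U
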